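import Mathlib
import Cfsg.Agent.S2690
import Cfsg.Agent.H159.DPi.Num

/-!
# S4247 (A'): `SL_n(F)` with trivial centre and its automorphisms (helper159)
-/

set_option autoImplicit false
set_option linter.unusedSectionVars false

namespace Cfsg.Agent.H159.DPi

open Matrix Cfsg

variable {F : Type} [Field F] [Fintype F] {n : ℕ}

theorem center_eq_bot (hn : 0 < n) (h : Nat.Coprime n (Fintype.card F - 1)) :
    Subgroup.center (SpecialLinearGroup (Fin n) F) = ⊥ := by
  rw [eq_bot_iff]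
  intro s hs
  obtain ⟨r, hr, h1⟩ := Matrix.SpecialLinearGroup.mem_center_iff.1 hs
  rw [Fintype.card_fin] at hr
  have hr0 : r ≠ 0 := by
    rintro rfl
    rw [zero_pow hn.ne'] at hr
    exact zero_ne_one hr
  have h2 : r ^ (Fintype.card F - 1) = 1 := FiniteField.pow_card_sub_one_eq_one r hr0
  have h3 : orderOf r ∣ Nat.gcd n (Fintype.card F - 1) :=
    Nat.dvd_gcd (orderOf_dvd_of_pow_eq_one hr) (orderOf_dvd_of_pow_eq_one h2)
  rw [h, Nat.dvd_one, orderOf_eq_one_iff] at h3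
  rw [Subgroup.mem_bot]
  apply Subtype.ext
  rw [← h1, h3, map_one]
  rfl

/-- `SL_n(F) ≅ PSL_n(F)` -/
noncomputable def toPSL (h : Subgroup.center (SpecialLinearGroup (Fin n) F) = ⊥) :
    SpecialLinearGroup (Fin n) F ≃* ProjectiveSpecialLinearGroup (Fin n) F :=
  MulEquiv.ofBijective (QuotientGroup.mk' (Subgroup.center (SpecialLinearGroup (Fin n) F))) (by
    refine ⟨?_, QuotientGroup.mk'_surjective _⟩
    rw [← MonoidHom.ker_eq_bot_iff, QuotientGroup.ker_mk', h])

theorem toPSL_apply (h : Subgroup.center (SpecialLinearGroup (Fin n) F) = ⊥) (s : SpecialLinearGroup (Fin n) F) :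
    toPSL h s = (QuotientGroup.mk s : ProjectiveSpecialLinearGroup (Fin n) F) := rfl

/-- conjugation by `GL` -/
def cjSL (g : GL (Fin n) F) (s : SpecialLinearGroup (Fin n) F) : SpecialLinearGroup (Fin n) F :=
  ⟨g.1 * s.1 * (g⁻¹ : GL (Fin n) F).1, by
    rw [Matrix.det_mul, Matrix.det_mul, s.2, mul_one, ← Matrix.det_mul, Units.mul_inv, Matrix.det_one]⟩

/-- **The automorphisms of `SL_n(F)`.** -/
theorem exists_form (hn : 3 ≤ n) (hc : Subgroup.center (SpecialLinearGroup (Fin n) F) = ⊥)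
    (β : MulAut (SpecialLinearGroup (Fin n) F)) :
    ∃ (g : GL (Fin n) F) (σ : RingAut F),
      (∀ s : SpecialLinearGroup (Fin n) F, (β s).1 = g.1 * s.1.map σ * (g⁻¹ : GL (Fin n) F).1) ∨
      (∀ s : SpecialLinearGroup (Fin n) F, (β s).1 = g.1 * ((s⁻¹).1.map σ)ᵀ * (g⁻¹ : GL (Fin n) F).1) := by
  obtain ⟨r, hr⟩ := CharP.exists F
  obtain ⟨f, hrp, hf⟩ := FiniteField.card F r
  have : Fact r.Prime := ⟨hrp⟩
  let e := toPSL hc
  obtain ⟨δ, φ, γ, σ, ⟨g, hδ⟩, hφ, hγ, hβ⟩ := S2690.result hf f.2 (n := n) (by omega) (by omega)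
    ((e.symm.trans β).trans e)
  have key : ∀ s t : SpecialLinearGroup (Fin n) F, δ (φ (QuotientGroup.mk t)) = e (β s) →
      (β s).1 = g.1 * t.1.map σ * (g⁻¹ : GL (Fin n) F).1 := by
    intro s t h
    have h1 : φ (QuotientGroup.mk t) = QuotientGroup.mk (Matrix.SpecialLinearGroup.map (σ : F →+* F) t) :=
      hφ t _ rfl
    have h2 : δ (QuotientGroup.mk (Matrix.SpecialLinearGroup.map (σ : F →+* F) t)) =
        QuotientGroup.mk (cjSL g (Matrix.SpecialLinearGroup.map (σ : F →+* F) t)) := hδ _ _ rfl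
    rw [h1, h2] at h
    have h3 : e (cjSL g (Matrix.SpecialLinearGroup.map (σ : F →+* F) t)) = e (β s) := h
    rw [← e.injective h3]
    rfl
  have hβs : ∀ s, e (β s) = δ (φ (γ (e s))) := by
    intro s
    have h1 : ((e.symm.trans β).trans e) (e s) = (δ * φ * γ) (e s) := by rw [hβ]
    have h2 : ((e.symm.trans β).trans e) (e s) = e (β s) := by
      show e (β (e.symm (e s))) = _
      rw [e.symm_apply_apply]
    rw [← h2, h1]
    rfl
  refine ⟨g, σ, ?_⟩
  rcases hγ with hγ | hγ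
  · left
    intro s
    refine key s s ?_
    rw [hβs, hγ]
    rfl
  · right
    intro s
    have h1 : γ (QuotientGroup.mk s) = QuotientGroup.mk (Matrix.SpecialLinearGroup.transpose s⁻¹) := hγ s _ rfl
    have h2 := key s (Matrix.SpecialLinearGroup.transpose s⁻¹) (by
      rw [hβs, ← h1]
      rfl)
    rw [h2]
    rfl

end Cfsg.Agent.H159.DPi
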