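import Cfsg.Agent.H817.DPi.Def

/-!
# S4247: consequences of the configuration `Cfg`, transport (helper159)
-/

set_option autoImplicit false
set_option linter.unusedSectionVars false

namespace Cfsg.Agent.H159.DPi

open Subgroup Cfsg Cfsg.Agent.H988.CPi Cfsg.Agent.H571.RV Cfsg.Agent.H817.DPi

universe u v

variable {π : Set ℕ}

section

variable {G : Type u} [Group G] [Finite G] {P : Subgroup G} {K B : Subgroup (MulAut G)} (h : Cfg π P K B)

instance finite_mulAut : Finite (MulAut G) := Finite.of_injective (fun (g : G ≃* G) => (g : G → G)) DFunLike.coe_injective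

include h

theorem Cfg.fac' (s : G) : ∃ x ∈ P, ∃ k ∈ K, ∃ b ∈ B, MulAut.conj s = MulAut.conj x * k * b :=
  h.fac _ ((le_sup_right : inn G ≤ B ⊔ inn G) ⟨s, rfl⟩)

/-- the index of `B ∩ S` -/
theorem Cfg.index_le : (B.comap (MulAut.conj : G →* MulAut G)).index ≤ Nat.card P * Nat.card K := by
  classical
  have h1 : ∀ y : G ⧸ B.comap (MulAut.conj : G →* MulAut G), ∃ a : P × K, ∃ b ∈ B,
      MulAut.conj y.out = MulAut.conj (a.1 : G) * (a.2 : MulAut G) * b := by
    intro y
    obtain ⟨x, hx, k, hk, b, hb, e⟩ := Cfg.fac' h y.out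
    exact ⟨(⟨x, hx⟩, ⟨k, hk⟩), b, hb, e⟩
  choose a b hb e using h1
  have h2 : Function.Injective a := by
    intro y y' hyy
    have h3 : (y.out)⁻¹ * y'.out ∈ B.comap (MulAut.conj : G →* MulAut G) := by
      rw [mem_comap, map_mul, map_inv, e, e, hyy]
      have : (MulAut.conj ((a y').1 : G) * ((a y').2 : MulAut G) * b y)⁻¹ *
          (MulAut.conj ((a y').1 : G) * ((a y').2 : MulAut G) * b y') = (b y)⁻¹ * b y' := by group
      rw [this]
      exact mul_mem (inv_mem (hb y)) (hb y')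
    rw [← QuotientGroup.eq, QuotientGroup.out_eq', QuotientGroup.out_eq'] at h3
    exact h3
  have h3 := Nat.card_le_card_of_injective a h2
  rw [Nat.card_prod] at h3
  exact h3

/-- `B ∩ S` is a `π'`-group -/
theorem Cfg.pi' (hc : Subgroup.center G = ⊥) : PiN' π (Nat.card (B.comap (MulAut.conj : G →* MulAut G))) := by
  have h1 : Function.Injective (MulAut.conj : G →* MulAut G) := by
    rw [← MonoidHom.ker_eq_bot_iff, eq_bot_iff, ← hc]
    intro g hg
    rw [Subgroup.mem_center_iff]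
    intro x
    have h2 : g * x * g⁻¹ = x := DFunLike.congr_fun (MonoidHom.mem_ker.1 hg) x
    exact (mul_inv_eq_iff_eq_mul.1 h2).symm
  exact fun p hp hpπ hd => h.piB p hp hpπ (hd.trans (Subgroup.card_comap_dvd_of_injective B _ h1))

omit [Finite G] in
theorem Cfg.ne_bot : P ≠ ⊥ := by
  rintro rfl
  exact h.nnil inferInstance

theorem Cfg.ne_top (hc : Subgroup.center G = ⊥) : B.comap (MulAut.conj : G →* MulAut G) ≠ ⊤ := by
  intro ht
  have h1 := Cfg.pi' h hc
  rw [ht, Subgroup.card_top] at h1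
  have h2 : Nat.card P ≠ 1 := fun h0 => Cfg.ne_bot h (Subgroup.eq_bot_of_card_eq P h0)
  obtain ⟨p, hp, hd⟩ := Nat.exists_prime_and_dvd h2
  exact h1 p hp (h.hall.1 p hp hd) (hd.trans (Subgroup.card_subgroup_dvd_card P))

/-- `K = 1`: a factorisation of `S` -/
theorem Cfg.mul_of_bot (hK : K = ⊥) (s : G) : ∃ x ∈ P, ∃ y ∈ B.comap (MulAut.conj : G →* MulAut G), s = x * y := by
  obtain ⟨x, hx, k, hk, b, hb, e⟩ := Cfg.fac' h s
  rw [hK, Subgroup.mem_bot] at hk
  rw [hk, mul_one] at e
  refine ⟨x, hx, x⁻¹ * s, ?_, by group⟩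
  rw [mem_comap, map_mul, map_inv, e, inv_mul_cancel_left]
  exact hb

theorem Cfg.index_of_bot (hc : Subgroup.center G = ⊥) (hK : K = ⊥) :
    (B.comap (MulAut.conj : G →* MulAut G)).index = Nat.card P := by
  refine le_antisymm ?_ ?_
  · have h1 := Cfg.index_le h
    rw [hK, Subgroup.card_bot, mul_one] at h1
    exact h1
  · have h1 : Disjoint P (B.comap (MulAut.conj : G →* MulAut G)) := by
      apply Subgroup.disjoint_of_coprime_natCard
      by_contra hcop
      obtain ⟨p, hp, h2, h3⟩ := Nat.Prime.not_coprime_iff_dvd.1 hcop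
      exact Cfg.pi' h hc p hp (h.hall.1 p hp h2) h3
    have h2 : Function.Injective (fun x : P => ((x : G) : G ⧸ B.comap (MulAut.conj : G →* MulAut G))) := by
      intro x y hxy
      have h3 : (x : G)⁻¹ * y ∈ B.comap (MulAut.conj : G →* MulAut G) := QuotientGroup.eq.1 hxy
      have h4 : (x : G)⁻¹ * y ∈ P := mul_mem (inv_mem x.2) y.2
      have h5 := Subgroup.disjoint_def.1 h1 h4 h3
      exact Subtype.ext (inv_mul_eq_one.1 h5)
    exact Nat.card_le_card_of_injective _ h2

end

/-- transport along an isomorphism -/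
theorem Cfg.congr {G : Type u} {G' : Type v} [Group G] [Group G'] [Finite G] [Finite G'] (e : G ≃* G')
    {P : Subgroup G} {K B : Subgroup (MulAut G)} (h : Cfg π P K B) :
    Cfg π (P.map (e : G →* G')) (K.map (MulAut.congr e : MulAut G →* MulAut G'))
      (B.map (MulAut.congr e : MulAut G →* MulAut G')) := by
  have hinn : (inn G).map (MulAut.congr e : MulAut G →* MulAut G') = inn G' := by
    ext a
    constructor
    · rintro ⟨_, ⟨s, rfl⟩, rfl⟩
      refine ⟨e s, MulEquiv.ext fun x => ?_⟩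
      show e s * x * (e s)⁻¹ = e (s * e.symm x * s⁻¹)
      rw [map_mul, map_mul, e.apply_symm_apply, map_inv]
    · rintro ⟨s, rfl⟩
      refine ⟨MulAut.conj (e.symm s), ⟨_, rfl⟩, MulEquiv.ext fun x => ?_⟩
      show e (e.symm s * e.symm x * (e.symm s)⁻¹) = s * x * s⁻¹
      rw [map_mul, map_mul, e.apply_symm_apply, e.apply_symm_apply, map_inv, e.apply_symm_apply]
  have hcP : Nat.card (P.map (e : G →* G')) = Nat.card P :=
    Subgroup.card_map_of_injective e.injective
  have hcK : Nat.card (K.map (MulAut.congr e : MulAut G →* MulAut G')) = Nat.card K :=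
    Subgroup.card_map_of_injective (MulAut.congr e).injective
  have hcB : Nat.card (B.map (MulAut.congr e : MulAut G →* MulAut G')) = Nat.card B :=
    Subgroup.card_map_of_injective (MulAut.congr e).injective
  refine ⟨h.two, ⟨?_, ?_⟩, ?_, ?_, ?_, ?_, ?_, ?_⟩
  · rw [hcP]
    exact h.hall.1
  · have h1 : (P.map (e : G →* G')).index = P.index := Subgroup.index_map_equiv P e
    rw [h1]
    exact h.hall.2
  · intro h1
    apply h.nnil
    exact Group.nilpotent_of_mulEquiv (P.equivMapOfInjective (e : G →* G') e.injective).symm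
  · rw [hcK]
    exact h.piK
  · rw [hcB]
    exact h.piB
  · rintro _ ⟨k, hk, rfl⟩ _ ⟨x, hx, rfl⟩
    show e (k (e.symm (e x))) = e x
    rw [e.symm_apply_apply, h.fix k hk x hx]
  · rw [← hinn, ← Subgroup.map_sup, ← Subgroup.map_sup, h.sup]
  · rintro g hg
    rw [← hinn, ← Subgroup.map_sup] at hg
    obtain ⟨g, hg, rfl⟩ := hg
    obtain ⟨x, hx, k, hk, b, hb, e1⟩ := h.fac g hg
    refine ⟨e x, ⟨x, hx, rfl⟩, _, ⟨k, hk, rfl⟩, _, ⟨b, hb, rfl⟩, ?_⟩
    rw [e1, map_mul, map_mul]
    congr 2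
    refine MulEquiv.ext fun y => ?_
    show e (x * e.symm y * x⁻¹) = e x * y * (e x)⁻¹
    rw [map_mul, map_mul, e.apply_symm_apply, map_inv]

end Cfsg.Agent.H159.DPi
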