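import Cfsg.Agent.H159.DPi.Aut
import Cfsg.Agent.H159.DPi.Fld
import Cfsg.Agent.H382.FieldAction

/-!
# S4247 (A'): automorphisms of `SL_n(F)` centralising `P` (helper159)
-/

set_option autoImplicit false
set_option linter.unusedSectionVars false

namespace Cfsg.Agent.H159.DPi

open Matrix Cfsg

variable {F : Type} [Field F] [Fintype F] {n : ℕ}

/-- central elements of prime order in a `p`-group -/
theorem exists_central {G : Type*} [Group G] [Finite G] {t k : ℕ} [Fact t.Prime] (hk : 0 < k) (R : Subgroup G)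
    (hR : Nat.card R = t ^ k) : ∃ z ∈ R, z ≠ 1 ∧ z ^ t = 1 ∧ ∀ x ∈ R, x * z = z * x := by
  have hp : IsPGroup t R := IsPGroup.of_card hR
  have hnt : Nontrivial R := by
    rw [← Finite.one_lt_card_iff_nontrivial, hR]
    exact Nat.one_lt_pow hk.ne' (Fact.out : t.Prime).one_lt
  have h1 : Nontrivial (Subgroup.center R) := hp.center_nontrivial
  have h2 : t ∣ Nat.card (Subgroup.center R) := by
    have h3 := (hp.to_subgroup (Subgroup.center R))
    obtain ⟨m, hm⟩ := IsPGroup.iff_card.1 h3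
    rw [hm]
    refine dvd_pow_self t ?_
    rintro rfl
    rw [pow_zero] at hm
    have := Finite.one_lt_card (α := Subgroup.center R)
    omega
  obtain ⟨z, hz⟩ := exists_prime_orderOf_dvd_card' t h2
  refine ⟨z.1.1, z.1.2, ?_, ?_, ?_⟩
  · intro h
    have h3 : z = 1 := Subtype.ext (Subtype.ext h)
    rw [h3, orderOf_one] at hz
    exact (Fact.out : t.Prime).one_lt.ne hz
  · have h3 : z ^ t = 1 := by rw [← hz, pow_orderOf_eq_one]
    exact congrArg (fun y : Subgroup.center R => ((y : R) : G)) h3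
  · intro x hx
    have h3 := Subgroup.mem_center_iff.1 z.2 ⟨x, hx⟩
    exact congrArg Subtype.val h3

/-- semilinear type -/
def IsSemi (g : GL (Fin n) F) (σ : RingAut F) (β : MulAut (SpecialLinearGroup (Fin n) F)) : Prop :=
  ∀ s : SpecialLinearGroup (Fin n) F, (β s).1 = g.1 * s.1.map σ * (g⁻¹ : GL (Fin n) F).1

/-- graph type -/
def IsGr (g : GL (Fin n) F) (σ : RingAut F) (β : MulAut (SpecialLinearGroup (Fin n) F)) : Prop :=
  ∀ s : SpecialLinearGroup (Fin n) F, (β s).1 = g.1 * ((s⁻¹).1.map σ)ᵀ * (g⁻¹ : GL (Fin n) F).1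

/-- the ring automorphism -/
def kap (g : GL (Fin n) F) (σ : RingAut F) (x : Matrix (Fin n) (Fin n) F) : Matrix (Fin n) (Fin n) F :=
  g.1 * x.map σ * (g⁻¹ : GL (Fin n) F).1

theorem map_mul' (σ : RingAut F) (x y : Matrix (Fin n) (Fin n) F) : (x * y).map σ = x.map σ * y.map σ :=
  Matrix.map_mul (f := (σ : F →+* F))

theorem kap_mul (g : GL (Fin n) F) (σ : RingAut F) (x y : Matrix (Fin n) (Fin n) F) :
    kap g σ (x * y) = kap g σ x * kap g σ y := by
  unfold kap
  rw [map_mul']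
  have h : (g⁻¹ : GL (Fin n) F).1 * g.1 = 1 := Units.inv_mul g
  calc g.1 * (x.map σ * y.map σ) * (g⁻¹ : GL (Fin n) F).1
      = g.1 * x.map σ * 1 * y.map σ * (g⁻¹ : GL (Fin n) F).1 := by rw [mul_one]; simp only [mul_assoc]
    _ = _ := by rw [← h]; simp only [mul_assoc]

theorem kap_add (g : GL (Fin n) F) (σ : RingAut F) (x y : Matrix (Fin n) (Fin n) F) :
    kap g σ (x + y) = kap g σ x + kap g σ y := by
  unfold kap
  rw [Matrix.map_add _ (map_add σ), mul_add, add_mul]

theorem kap_one (g : GL (Fin n) F) (σ : RingAut F) : kap g σ 1 = 1 := by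
  unfold kap
  rw [Matrix.map_one _ (map_zero σ) (map_one σ), mul_one]
  exact Units.mul_inv g

theorem kap_algebraMap (g : GL (Fin n) F) (σ : RingAut F) (c : F) :
    kap g σ (algebraMap F (Matrix (Fin n) (Fin n) F) c) = algebraMap F (Matrix (Fin n) (Fin n) F) (σ c) := by
  have h1 : (algebraMap F (Matrix (Fin n) (Fin n) F) c).map σ = algebraMap F (Matrix (Fin n) (Fin n) F) (σ c) := by
    rw [Matrix.algebraMap_eq_diagonal, Matrix.algebraMap_eq_diagonal, Matrix.diagonal_map (map_zero σ)]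
    rfl
  unfold kap
  rw [h1, ← Algebra.commutes, mul_assoc]
  have h : g.1 * (g⁻¹ : GL (Fin n) F).1 = 1 := Units.mul_inv g
  rw [h, mul_one]

/-- the transposed automorphism -/
def kapT (g : GL (Fin n) F) (σ : RingAut F) (x : Matrix (Fin n) (Fin n) F) : Matrix (Fin n) (Fin n) F :=
  g.1 * (x.map σ)ᵀ * (g⁻¹ : GL (Fin n) F).1

theorem kapT_mul (g : GL (Fin n) F) (σ : RingAut F) (x y : Matrix (Fin n) (Fin n) F) :
    kapT g σ (x * y) = kapT g σ y * kapT g σ x := by
  unfold kapT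
  rw [map_mul', Matrix.transpose_mul]
  have h : (g⁻¹ : GL (Fin n) F).1 * g.1 = 1 := Units.inv_mul g
  calc g.1 * ((y.map σ)ᵀ * (x.map σ)ᵀ) * (g⁻¹ : GL (Fin n) F).1
      = g.1 * (y.map σ)ᵀ * 1 * (x.map σ)ᵀ * (g⁻¹ : GL (Fin n) F).1 := by rw [mul_one]; simp only [mul_assoc]
    _ = _ := by rw [← h]; simp only [mul_assoc]

theorem kapT_add (g : GL (Fin n) F) (σ : RingAut F) (x y : Matrix (Fin n) (Fin n) F) :
    kapT g σ (x + y) = kapT g σ x + kapT g σ y := by
  unfold kapT
  rw [Matrix.map_add _ (map_add σ), Matrix.transpose_add, mul_add, add_mul]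

theorem kapT_one (g : GL (Fin n) F) (σ : RingAut F) : kapT g σ 1 = 1 := by
  unfold kapT
  rw [Matrix.map_one _ (map_zero σ) (map_one σ), Matrix.transpose_one, mul_one]
  exact Units.mul_inv g

section

variable {z : SpecialLinearGroup (Fin n) F} {E : Type} [Field E] [Finite E] {ψ : E →+* Matrix (Fin n) (Fin n) F}

/-- **No element of graph type.** -/
theorem not_isGr (D : FZ z.1 ψ) (hn : Odd n) {r f : ℕ} [Fact r.Prime] (hF : Fintype.card F = r ^ f) (hf : Odd f)
    {t : ℕ} (ht : Odd t) (hz : z ^ t = 1) (hz1 : z ≠ 1) {g : GL (Fin n) F} {σ : RingAut F}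
    {β : MulAut (SpecialLinearGroup (Fin n) F)} (hβ : IsGr g σ β) (hfix : β z = z) : False := by
  have h1 : kapT g σ (z⁻¹).1 = z.1 := by
    have h2 := hβ z
    rw [hfix] at h2
    exact h2.symm
  have hzz : z.1 * (z⁻¹).1 = 1 := congrArg Subtype.val (mul_inv_cancel z)
  have hzz' : (z⁻¹).1 * z.1 = 1 := congrArg Subtype.val (inv_mul_cancel z)
  have h2 : kapT g σ z.1 * z.1 = 1 := by
    calc kapT g σ z.1 * z.1 = kapT g σ z.1 * kapT g σ (z⁻¹).1 := by rw [h1]
      _ = kapT g σ ((z⁻¹).1 * z.1) := (kapT_mul g σ _ _).symm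
      _ = 1 := by rw [hzz', kapT_one]
  obtain ⟨τ, hτ⟩ := D.exists_tau (kapT g σ) (kapT_add g σ) (kapT_one g σ)
    (fun x y hxy => by rw [hxy, kapT_mul]) (fun x hx => by
      have h3 : x * (z⁻¹).1 = (z⁻¹).1 * x := by
        calc x * (z⁻¹).1 = 1 * x * (z⁻¹).1 := by rw [one_mul]
          _ = (z⁻¹).1 * (z.1 * x) * (z⁻¹).1 := by rw [← hzz']; simp only [mul_assoc]
          _ = (z⁻¹).1 * (x * z.1) * (z⁻¹).1 := by rw [hx]
          _ = (z⁻¹).1 * x * (z.1 * (z⁻¹).1) := by simp only [mul_assoc]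
          _ = (z⁻¹).1 * x := by rw [hzz, mul_one]
      calc kapT g σ x * z.1 = kapT g σ x * kapT g σ (z⁻¹).1 := by rw [h1]
        _ = kapT g σ ((z⁻¹).1 * x) := (kapT_mul g σ _ _).symm
        _ = kapT g σ (x * (z⁻¹).1) := by rw [h3]
        _ = kapT g σ (z⁻¹).1 * kapT g σ x := kapT_mul g σ _ _
        _ = z.1 * kapT g σ x := by rw [h1])
  obtain ⟨a, ha⟩ := D.mem z.1 rfl
  have h3 : τ a * a = 1 := D.inj (by rw [map_mul, hτ, ha, h2, map_one])
  have h4 : a ^ t = 1 := D.inj (by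
    rw [map_pow, ha, map_one]
    exact congrArg Subtype.val hz)
  have h5 : a ≠ 1 := by
    rintro rfl
    apply hz1
    apply Subtype.ext
    rw [← ha, map_one]
    rfl
  have hodd : Odd (orderOf τ) := by
    have h6 : Nat.card E = r ^ (f * n) := by rw [D.card, hF, pow_mul]
    have h7 := (H382.FieldAction.card_ringAut_dvd E h6).1
    have h8 : orderOf τ ∣ f * n := by
      rw [← h7]
      exact orderOf_dvd_natCard τ
    exact (hf.mul hn).of_dvd_nat h8
  exact false_of_inv hodd ht h4 h5 (eq_inv_of_mul_eq_one_left h3)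

/-- the fixed field of the automorphism induced by an element of semilinear type -/
theorem exists_fixed (D : FZ z.1 ψ) (hn : 0 < n) {g : GL (Fin n) F} {σ : RingAut F}
    {β : MulAut (SpecialLinearGroup (Fin n) F)} (hβ : IsSemi g σ β) (hfix : β z = z) :
    ∃ E₀ : Subfield E, Nat.card E₀ ^ orderOf σ = Fintype.card F ^ n ∧
      ∀ x : SpecialLinearGroup (Fin n) F, x * z = z * x → β x = x → ∃ a ∈ E₀, ψ a = x.1 := by
  have h1 : kap g σ z.1 = z.1 := by
    have h2 := hβ z
    rw [hfix] at h2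
    exact h2.symm
  obtain ⟨τ, hτ⟩ := D.exists_tau (kap g σ) (kap_add g σ) (kap_one g σ) (fun x y _ => kap_mul g σ x y)
    (fun x hx => by
      calc kap g σ x * z.1 = kap g σ x * kap g σ z.1 := by rw [h1]
        _ = kap g σ (x * z.1) := (kap_mul g σ _ _).symm
        _ = kap g σ (z.1 * x) := by rw [hx]
        _ = kap g σ z.1 * kap g σ x := kap_mul g σ _ _
        _ = z.1 * kap g σ x := by rw [h1])
  obtain ⟨ι, hι⟩ := D.exists_iota
  obtain ⟨a, ha⟩ := D.mem z.1 rfl
  have h2 := D.orderOf_tau hn (τ := τ) (σ := σ) hι (fun c => D.inj (by rw [hτ, hι, hι, kap_algebraMap])) ha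
    (D.inj (by rw [hτ, ha, h1]))
  let E₀ : Subfield E :=
    { carrier := {x | τ x = x}
      mul_mem' := fun {a b} ha hb => by
        rw [Set.mem_ofPred_eq] at *
        rw [map_mul, ha, hb]
      one_mem' := map_one τ
      add_mem' := fun {a b} ha hb => by
        rw [Set.mem_ofPred_eq] at *
        rw [map_add, ha, hb]
      zero_mem' := map_zero τ
      neg_mem' := fun {a} ha => by
        rw [Set.mem_ofPred_eq] at *
        rw [map_neg, ha]
      inv_mem' := fun a ha => by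
        rw [Set.mem_ofPred_eq] at *
        rw [map_inv₀, ha] }
  refine ⟨E₀, ?_, ?_⟩
  · rw [← h2, ← D.card]
    exact card_fix τ
  · intro x hx hxf
    obtain ⟨b, hb⟩ := D.mem x.1 (congrArg Subtype.val hx)
    refine ⟨b, ?_, hb⟩
    show τ b = b
    apply D.inj
    rw [hτ, hb]
    have h3 := hβ x
    rw [hxf] at h3
    exact h3.symm

/-- **Elements of `PGL`-type centralising a non-abelian group are trivial.** -/
theorem eq_one_of_semi_one (D : FZ z.1 ψ) (hn : n.Prime) {P : Subgroup (SpecialLinearGroup (Fin n) F)} (hzP : z ∈ P)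
    (hP : ¬ ∀ x ∈ P, ∀ y ∈ P, x * y = y * x) {g : GL (Fin n) F} {β : MulAut (SpecialLinearGroup (Fin n) F)}
    (hβ : IsSemi g 1 β) (hfix : ∀ x ∈ P, β x = x) : β = 1 := by
  have hg : ∀ x ∈ P, x.1 * g.1 = g.1 * x.1 := by
    intro x hx
    have h1 := hβ x
    rw [hfix x hx] at h1
    have h2 : x.1.map (1 : RingAut F) = x.1 := Matrix.map_id _
    rw [h2] at h1
    calc x.1 * g.1 = g.1 * x.1 * (g⁻¹ : GL (Fin n) F).1 * g.1 := by rw [← h1]
      _ = g.1 * x.1 * ((g⁻¹ : GL (Fin n) F).1 * g.1) := by simp only [mul_assoc]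
      _ = g.1 * x.1 := by rw [Units.inv_mul g, mul_one]
  by_cases hs : ∃ c : F, g.1 = algebraMap F (Matrix (Fin n) (Fin n) F) c
  · obtain ⟨c, hc⟩ := hs
    refine MulEquiv.ext fun s => Subtype.ext ?_
    have h1 := hβ s
    have h2 : s.1.map (1 : RingAut F) = s.1 := Matrix.map_id _
    rw [h2, hc, Algebra.commutes, ← hc, mul_assoc] at h1
    have h : g.1 * (g⁻¹ : GL (Fin n) F).1 = 1 := Units.mul_inv g
    rw [h, mul_one] at h1
    exact h1
  · exfalso
    push Not at hs
    apply hP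
    have h1 : ∀ x ∈ P, ∃ a, ψ a = x.1 := fun x hx =>
      D.mem _ (D.comm_of hn (hg z hzP).symm hs (hg x hx))
    intro x hx y hy
    obtain ⟨a, ha⟩ := h1 x hx
    obtain ⟨b, hb⟩ := h1 y hy
    apply Subtype.ext
    show x.1 * y.1 = y.1 * x.1
    rw [← ha, ← hb, ← map_mul, ← map_mul, mul_comm]

end

end Cfsg.Agent.H159.DPi
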