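import Cfsg.Agent.H159.DPi.Core1

/-!
# S4247 (A'): the orders of `P` and `K` (helper159)
-/

set_option autoImplicit false
set_option linter.unusedSectionVars false

namespace Cfsg.Agent.H159.DPi

open Matrix Cfsg

/-- divisibility from the prime powers -/
theorem dvd_mul_of_parts {m n M : ℕ} (hn : n.Prime) (h2 : ¬ n ^ 2 ∣ m)
    (h : ∀ t k : ℕ, t.Prime → t ≠ n → 0 < k → t ^ k ∣ m → t ^ k ∣ M) : m ∣ n * M := by
  rw [Nat.dvd_iff_prime_pow_dvd_dvd]
  intro t k ht hk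
  rcases Nat.eq_zero_or_pos k with rfl | hk0
  · rw [pow_zero]; exact one_dvd _
  by_cases htn : t = n
  · subst htn
    have h1 : k = 1 := by
      by_contra hne
      exact h2 ((pow_dvd_pow t (by omega)).trans hk)
    rw [h1, pow_one]
    exact dvd_mul_right _ _
  · exact (h t k ht htn hk0 hk).mul_left _

variable {F : Type} [Field F] [Fintype F] {n : ℕ}

/-- the hypotheses on `P` -/
structure Hy (n r f : ℕ) (F : Type) [Field F] [Fintype F] (P : Subgroup (SpecialLinearGroup (Fin n) F)) : Prop where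
  prime : n.Prime
  three : 3 ≤ n
  hr : r.Prime
  char : CharP F r
  card : Fintype.card F = r ^ f
  oddf : Odd f
  cen : Subgroup.center (SpecialLinearGroup (Fin n) F) = ⊥
  ab : ¬ ∀ x ∈ P, ∀ y ∈ P, x * y = y * x
  tp : ∀ t, t.Prime → t ∣ Nat.card P → t ≠ n → Odd t ∧ t ≠ r ∧ orderOf ((Fintype.card F : ℕ) : ZMod t) = n
  ex : ∃ t, t.Prime ∧ t ∣ Nat.card P ∧ t ≠ n
  nn : ¬ n ^ 2 ∣ Nat.card P

namespace Hy

variable {r f : ℕ} {P : Subgroup (SpecialLinearGroup (Fin n) F)} (h : Hy n r f F P)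

include h

theorem exists_z {t k : ℕ} (ht : t.Prime) (htn : t ≠ n) (hk : 0 < k) (hd : t ^ k ∣ Nat.card P) :
    ∃ R ≤ P, Nat.card R = t ^ k ∧ ∃ z ∈ R, z ≠ 1 ∧ z ^ t = 1 ∧ (∀ x ∈ R, x * z = z * x) ∧
      ∃ (E : Type) (_ : Field E) (_ : Finite E) (ψ : E →+* Matrix (Fin n) (Fin n) F), FZ z.1 ψ := by
  have := Fact.mk ht
  have := Fact.mk h.hr
  have := h.char
  obtain ⟨R', hR'⟩ := Sylow.exists_subgroup_card_pow_prime t hd
  have hR : Nat.card (R'.map P.subtype) = t ^ k := by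
    rw [Subgroup.card_map_of_injective P.subtype_injective, hR']
  obtain ⟨z, hzR, hz1, hzt, hzc⟩ := exists_central hk _ hR
  obtain ⟨h1, h2, h3⟩ := h.tp t ht ((dvd_pow_self t hk.ne').trans hd) htn
  refine ⟨R'.map P.subtype, ?_, hR, z, hzR, hz1, hzt, hzc, ?_⟩
  · rintro _ ⟨x, -, rfl⟩
    exact x.2
  · refine exists_field h.prime.pos (irr_of_pow (r := r) (t := t) h2
      (not_dvd_pow_sub_one Fintype.card_pos h3) ?_ ?_)
    · exact congrArg Subtype.val hzt
    · intro h4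
      exact hz1 (Subtype.ext h4)

/-- one element -/
theorem exists_one : ∃ (t : ℕ) (z : SpecialLinearGroup (Fin n) F), t.Prime ∧ Odd t ∧ z ∈ P ∧ z ≠ 1 ∧ z ^ t = 1 ∧
      ∃ (E : Type) (_ : Field E) (_ : Finite E) (ψ : E →+* Matrix (Fin n) (Fin n) F), FZ z.1 ψ := by
  obtain ⟨t, ht, hd, htn⟩ := h.ex
  obtain ⟨R, hRP, -, z, hz, hz1, hzt, -, h1⟩ := h.exists_z ht htn one_pos (by rwa [pow_one])
  exact ⟨t, z, ht, (h.tp t ht hd htn).1, hRP hz, hz1, hzt, h1⟩

variable {K : Subgroup (MulAut (SpecialLinearGroup (Fin n) F))} (hK : ∀ k ∈ K, ∀ x ∈ P, k x = x)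

include hK

/-- all elements of `K` are of semilinear type -/
theorem exists_semi (k : K) : ∃ (g : GL (Fin n) F) (σ : RingAut F), IsSemi g σ k.1 := by
  obtain ⟨g, σ, h1 | h1⟩ := exists_form h.three h.cen k.1
  · exact ⟨g, σ, h1⟩
  · exfalso
    have := Fact.mk h.hr
    obtain ⟨t, z, ht, hodd, hzP, hz1, hzt, E, _, _, ψ, D⟩ := h.exists_one
    exact not_isGr D (h.prime.odd_of_ne_two (by have := h.three; omega)) h.card h.oddf hodd hzt hz1 h1
      (hK _ k.2 z hzP)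

/-- semilinear elements with the same field automorphism coincide -/
theorem semi_inj {k l : MulAut (SpecialLinearGroup (Fin n) F)} (hk : k ∈ K) (hl : l ∈ K) {g g' : GL (Fin n) F}
    {σ : RingAut F} (h1 : IsSemi g σ k) (h2 : IsSemi g' σ l) : k = l := by
  obtain ⟨t, z, ht, hodd, hzP, hz1, hzt, E, _, _, ψ, D⟩ := h.exists_one
  have h3 : IsSemi (g * g'⁻¹) 1 (k * l⁻¹) := by
    intro s
    have e1 : ((k * l⁻¹) s).1 = g.1 * (l⁻¹ s).1.map σ * (g⁻¹ : GL (Fin n) F).1 := h1 _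
    have e2 : s.1 = g'.1 * (l⁻¹ s).1.map σ * (g'⁻¹ : GL (Fin n) F).1 := by
      have := h2 (l⁻¹ s)
      have e3 : l (l⁻¹ s) = s := MulAut.apply_inv_self _ l s
      rw [e3] at this
      exact this
    have e3 : s.1.map (1 : RingAut F) = s.1 := Matrix.map_id _
    have e4 : (l⁻¹ s).1.map σ = (g'⁻¹ : GL (Fin n) F).1 * s.1 * g'.1 := by
      rw [e2]
      have e5 : (g'⁻¹ : GL (Fin n) F).1 * g'.1 = 1 := Units.inv_mul g'
      calc (l⁻¹ s).1.map σ = 1 * (l⁻¹ s).1.map σ * 1 := by rw [one_mul, mul_one]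
        _ = _ := by rw [← e5]; simp only [mul_assoc]
    rw [e1, e4, e3, _root_.mul_inv_rev, inv_inv]
    show _ = (g.1 * (g'⁻¹ : GL (Fin n) F).1) * s.1 * (g'.1 * (g⁻¹ : GL (Fin n) F).1)
    simp only [mul_assoc]
  have h4 := eq_one_of_semi_one D h.prime hzP h.ab h3 (fun x hx => by
    show k (l⁻¹ x) = x
    have e1 : l⁻¹ x = x := hK _ (K.inv_mem hl) x hx
    rw [e1, hK k hk x hx])
  rwa [mul_inv_eq_one] at h4

theorem card_K : Nat.card K ≤ f := by
  classical
  have := Fact.mk h.hr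
  have hfin : Finite (RingAut F) := Finite.of_injective (fun (g : F ≃+* F) => (g : F → F)) DFunLike.coe_injective
  choose g σ hs using h.exists_semi hK
  have h1 : Function.Injective σ := by
    intro k l hkl
    refine Subtype.ext (h.semi_inj hK k.2 l.2 (hs k) (g' := g l) ?_)
    rw [hkl]
    exact hs l
  have h2 : Nat.card (RingAut F) = f :=
    (H382.FieldAction.card_ringAut_dvd F (by rw [Nat.card_eq_fintype_card, h.card])).1
  rw [← h2]
  exact Nat.card_le_card_of_injective σ h1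

/-- the order of `P` if `K ≠ 1` -/
theorem card_P_of_ne {k : MulAut (SpecialLinearGroup (Fin n) F)} (hk : k ∈ K) (hk1 : k ≠ 1) :
    3 ≤ f ∧ ∃ Q : ℕ, 1 < Q ∧ Q ^ 3 ≤ Fintype.card F ^ n ∧ Nat.card P ∣ n * (Q - 1) := by
  have := Fact.mk h.hr
  have hfin : Finite (RingAut F) := Finite.of_injective (fun (g : F ≃+* F) => (g : F → F)) DFunLike.coe_injective
  obtain ⟨g, σ, hs⟩ := h.exists_semi hK ⟨k, hk⟩
  have hs : IsSemi g σ k := hs
  have hσ1 : σ ≠ 1 := by
    rintro rfl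
    apply hk1
    refine h.semi_inj hK hk K.one_mem hs (g' := 1) ?_
    intro s
    show s.1 = 1 * s.1.map (1 : RingAut F) * ((1⁻¹ : GL (Fin n) F)).1
    rw [inv_one, one_mul]
    show s.1 = s.1.map (1 : RingAut F) * 1
    rw [mul_one]
    exact (Matrix.map_id _).symm
  have h2 : Nat.card (RingAut F) = f :=
    (H382.FieldAction.card_ringAut_dvd F (by rw [Nat.card_eq_fintype_card, h.card])).1
  have h3 : orderOf σ ∣ f := by
    rw [← h2]
    exact orderOf_dvd_natCard σ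
  have h4 : Odd (orderOf σ) := h.oddf.of_dvd_nat h3
  have h5 : orderOf σ ≠ 1 := fun h0 => hσ1 (orderOf_eq_one_iff.1 h0)
  have hf0 : 0 < f := h.oddf.pos
  have h6 : 3 ≤ orderOf σ := by
    obtain ⟨j, hj⟩ := h4
    omega
  refine ⟨h6.trans (Nat.le_of_dvd hf0 h3), ?_⟩
  -- the order of the fixed field
  obtain ⟨t₀, z₀, ht₀, hodd₀, hzP₀, hz1₀, hzt₀, E, _, _, ψ, D⟩ := h.exists_one
  obtain ⟨E₀, hE₀, -⟩ := exists_fixed D h.prime.pos hs (hK k hk z₀ hzP₀)
  refine ⟨Nat.card E₀, Finite.one_lt_card, ?_, ?_⟩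
  · rw [← hE₀]
    exact Nat.pow_le_pow_right Nat.card_pos h6
  · refine dvd_mul_of_parts h.prime h.nn fun t j ht htn hj hd => ?_
    obtain ⟨R, hRP, hR, z, hzR, hz1, hzt, hzc, E', _, _, ψ', D'⟩ := h.exists_z ht htn hj hd
    obtain ⟨E₁, hE₁, h7⟩ := exists_fixed D' h.prime.pos hs (hK k hk z (hRP hzR))
    have h8 : Nat.card E₁ = Nat.card E₀ :=
      Nat.pow_left_injective (orderOf_pos σ).ne' (hE₁.trans hE₀.symm)
    have h9 := D'.card_dvd E₁ (R.map SpecialLinearGroup.toGL) (by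
      rintro _ ⟨x, hx, rfl⟩
      exact h7 x (hzc x hx) (hK k hk x (hRP hx)))
    rw [Subgroup.card_map_of_injective SpecialLinearGroup.toGL_injective, hR, h8] at h9
    exact h9

omit hK in
/-- the order of `P` -/
theorem card_P : Nat.card P ∣ n * ((Fintype.card F ^ n - 1) / (Fintype.card F - 1)) := by
  refine dvd_mul_of_parts h.prime h.nn fun t j ht htn hj hd => ?_
  obtain ⟨R, hRP, hR, z, hzR, hz1, hzt, hzc, E', _, _, ψ', D'⟩ := h.exists_z ht htn hj hd
  have h9 := D'.card_dvd ⊤ (R.map SpecialLinearGroup.toGL) (by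
    rintro _ ⟨x, hx, rfl⟩
    obtain ⟨a, ha⟩ := D'.mem x.1 (congrArg Subtype.val (hzc x hx))
    exact ⟨a, trivial, ha⟩)
  rw [Subgroup.card_map_of_injective SpecialLinearGroup.toGL_injective, hR] at h9
  have h10 : Nat.card (⊤ : Subfield E') = Fintype.card F ^ n := by
    rw [← D'.card]
    exact Nat.card_congr (Subfield.topEquiv).toEquiv
  rw [h10] at h9
  have h11 : (Fintype.card F - 1) ∣ Fintype.card F ^ n - 1 := by
    simpa using Nat.sub_dvd_pow_sub_pow (Fintype.card F) 1 n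
  have h12 : Nat.Coprime (t ^ j) (Fintype.card F - 1) := by
    apply Nat.Coprime.pow_left
    rw [Nat.Prime.coprime_iff_not_dvd ht]
    have h13 := (h.tp t ht ((dvd_pow_self t hj.ne').trans hd) htn).2.2
    have h14 := not_dvd_pow_sub_one Fintype.card_pos h13 1 one_pos (by have := h.three; omega)
    rwa [pow_one] at h14
  have h15 : Fintype.card F ^ n - 1 = (Fintype.card F - 1) * ((Fintype.card F ^ n - 1) / (Fintype.card F - 1)) :=
    (Nat.mul_div_cancel' h11).symm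
  rw [h15] at h9
  exact h12.dvd_of_dvd_mul_left h9

end Hy

end Cfsg.Agent.H159.DPi
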