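import Mathlib
import Cfsg.Agent.H159.DPi.Num

/-!
# S4247, `StNum`: the arithmetic (helper159)
-/

set_option autoImplicit false
set_option linter.unusedSectionVars false

namespace Cfsg.Agent.H159.DPi

/-- the product over the multiples of `e` -/
theorem pow_dvd_prod {q s e : ℕ} (hq : 0 < q) (he : orderOf (q : ZMod s) = e) (N : ℕ) :
    s ^ (N / e) ∣ ∏ i ∈ Finset.range N, (q ^ (i + 1) - 1) := by
  induction N with
  | zero => simp
  | succ N ih =>
    rw [Finset.prod_range_succ, Nat.succ_div]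
    by_cases h : e ∣ N + 1
    · rw [if_pos h, pow_succ]
      refine mul_dvd_mul ih ?_
      rw [dvd_pow_sub_one_iff_orderOf hq, he]
      exact h
    · rw [if_neg h, add_zero]
      exact ih.mul_right _

theorem lt_pow_of {s k : ℕ} (hs : 3 ≤ s) (hk : 2 ≤ k) : (s - 1) * (k + 1) < s ^ k := by
  obtain ⟨s, rfl⟩ : ∃ a, s = a + 1 := ⟨s - 1, by omega⟩
  rw [Nat.add_sub_cancel]
  induction k, hk using Nat.le_induction with
  | base => nlinarith
  | succ k hk ih =>
    rw [pow_succ]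
    have h1 : (s * (k + 1) + 1) * (s + 1) ≤ (s + 1) ^ k * (s + 1) := Nat.mul_le_mul_right (s + 1) ih
    refine lt_of_lt_of_le ?_ h1
    have h2 : s * (k + 1) ≤ s * (k + 1) * (s + 1) := Nat.le_mul_of_pos_right _ (by omega)
    calc s * (k + 1 + 1) = s * (k + 1) + s := by ring
      _ < s * (k + 1) * (s + 1) + (s + 1) := by omega
      _ = (s * (k + 1) + 1) * (s + 1) := by ring

/-- **the arithmetic** -/
theorem num_hall {n q s M : ℕ} (hn : 3 ≤ n) (hq : 2 ≤ q) (hs : s.Prime) (hs2 : s ≠ 2)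
    (he : 0 < orderOf (q : ZMod s)) (hes : orderOf (q : ZMod s) ∣ s - 1) (hen : orderOf (q : ZMod s) ≤ n)
    (hM : M = ∏ i ∈ Finset.range (n - 1), (q ^ (i + 1) - 1))
    (h : ∀ j, s ^ j ∣ M * (q ^ n - 1) → s ^ j ∣ (q ^ n - 1) * n) :
    orderOf (q : ZMod s) = n ∨ (s = n ∧ orderOf (q : ZMod s) = n - 1 ∧ ¬ s ^ 2 ∣ q ^ (n - 1) - 1) := by
  have hs3 : 3 ≤ s := by have := hs.two_le; omega
  -- cancelling `q ^ n - 1`
  have hqn : q ^ n - 1 ≠ 0 := by
    have : 2 ^ 1 ≤ q ^ n := (Nat.pow_le_pow_left hq 1).trans (Nat.pow_le_pow_right (by omega) (by omega))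
    omega
  have hcan : ∀ j, s ^ j ∣ M → s ^ j ∣ n := by
    intro j hj
    obtain ⟨c, m, hm, hc⟩ := Nat.exists_eq_pow_mul_and_not_dvd hqn s hs.ne_one
    have h1 : s ^ (j + c) ∣ M * (q ^ n - 1) := by
      rw [pow_add]
      exact mul_dvd_mul hj ⟨m, hc⟩
    have h2 := h _ h1
    rw [hc, pow_add, mul_comm (s ^ j), mul_assoc] at h2
    have h3 := Nat.dvd_of_mul_dvd_mul_left (pow_pos hs.pos c) h2
    exact (Nat.Coprime.pow_left j ((Nat.Prime.coprime_iff_not_dvd hs).2 hm)).dvd_of_dvd_mul_left h3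
  set e := orderOf (q : ZMod s) with hedef
  rcases Nat.eq_or_lt_of_le hen with hen | hen
  · exact Or.inl hen
  right
  have hk := hcan _ (hM ▸ pow_dvd_prod (by omega) hedef.symm (n - 1))
  set k := (n - 1) / e with hkdef
  have hk1 : 1 ≤ k := (Nat.one_le_div_iff he).2 (by omega)
  have h1 : n - 1 < e * (k + 1) := by
    exact Nat.lt_mul_div_succ _ he
  have hes' : e ≤ s - 1 := Nat.le_of_dvd (by omega) hes
  have h2 : n ≤ (s - 1) * (k + 1) := by
    have := Nat.mul_le_mul_right (k + 1) hes'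
    omega
  have hkk : k = 1 := by
    by_contra hne
    have h3 := lt_pow_of hs3 (show 2 ≤ k by omega)
    have h4 := Nat.le_of_dvd (by omega) hk
    omega
  rw [hkk, pow_one] at hk
  rw [hkk] at h2
  have hns : s = n := by
    obtain ⟨u, hu⟩ := hk
    have hu1 : u < 2 := by
      by_contra hu2
      have h5 : s * 2 ≤ s * u := Nat.mul_le_mul_left s (by omega)
      omega
    have hu0 : u ≠ 0 := by rintro rfl; omega
    have : u = 1 := by omega
    rw [this, mul_one] at hu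
    exact hu.symm
  have hen1 : e = n - 1 := by
    obtain ⟨u, hu⟩ := hes
    rw [hns] at hu
    have h5 : (n - 1) / e = u := by rw [hu, Nat.mul_div_cancel_left _ he]
    rw [← hkdef, hkk] at h5
    rw [hu, ← h5, mul_one]
  refine ⟨hns, hen1, fun hd => ?_⟩
  have h6 : s ^ 2 ∣ M := by
    refine hd.trans ?_
    rw [hM]
    have h7 : q ^ (n - 1) - 1 = q ^ ((n - 2) + 1) - 1 := by congr 2; omega
    rw [h7]
    exact Finset.dvd_prod_of_mem (fun i => q ^ (i + 1) - 1) (Finset.mem_range.2 (by omega))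
  have h8 := hcan 2 h6
  rw [← hns] at h8
  have h9 := Nat.le_of_dvd hs.pos h8
  nlinarith

end Cfsg.Agent.H159.DPi
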