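import Cfsg.Agent.H159.DPi.Fld

/-!
# S4247, `StNum`: the normaliser of a Singer element (helper159)
-/

set_option autoImplicit false
set_option linter.unusedSectionVars false

namespace Cfsg.Agent.H159.DPi

open Matrix

variable {F : Type} [Field F] [Fintype F] {n : ℕ} {z : Matrix (Fin n) (Fin n) F} {E : Type} [Field E] [Finite E]
  {ψ : E →+* Matrix (Fin n) (Fin n) F}

/-- the group of the automorphisms over `F` has order dividing `n` -/
theorem FZ.card_aut_dvd (D : FZ z ψ) (G : Subgroup (RingAut E)) (ι : F →+* E)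
    (hG : ∀ τ ∈ G, ∀ c, τ (ι c) = ι c) : Nat.card G ∣ n := by
  classical
  have hfin : Finite (RingAut E) := Finite.of_injective (fun (g : E ≃+* E) => (g : E → E)) DFunLike.coe_injective
  have := Fintype.ofFinite G
  have h1 := FixedPoints.finrank_eq_card G E
  have h2 := Module.natCard_eq_pow_finrank (K := FixedPoints.subfield G E) (V := E)
  rw [h1, D.card] at h2
  let j : F →+* FixedPoints.subfield G E := ι.codRestrict (FixedPoints.subfield G E) fun c g => hG g.1 g.2 c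
  let _ : Algebra F (FixedPoints.subfield G E) := j.toAlgebra
  have h3 := Module.natCard_eq_pow_finrank (K := F) (V := FixedPoints.subfield G E)
  rw [h3, ← pow_mul, Nat.card_eq_fintype_card] at h2
  have h4 := Nat.pow_right_injective (Fintype.one_lt_card (α := F)) h2
  exact ⟨Module.finrank F (FixedPoints.subfield G E), by rw [Nat.card_eq_fintype_card, mul_comm]; exact h4⟩

/-- a group normalising the centraliser of `z` -/
theorem FZ.card_norm (D : FZ z ψ) {P : Subgroup (GL (Fin n) F)}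
    (hP : ∀ g ∈ P, ∀ x : Matrix (Fin n) (Fin n) F, x * z = z * x → (g.1 * x * (g⁻¹).1) * z = z * (g.1 * x * (g⁻¹).1)) :
    Nat.card P ∣ (Fintype.card F ^ n - 1) * n ∧
      (Nat.Coprime (Nat.card P) n → ∀ x ∈ P, ∀ y ∈ P, x * y = y * x) := by
  have hgg : ∀ g : GL (Fin n) F, (g⁻¹).1 * g.1 = 1 := fun g => Units.inv_mul g
  have hgg' : ∀ g : GL (Fin n) F, g.1 * (g⁻¹).1 = 1 := fun g => Units.mul_inv g
  have h1 : ∀ g : P, ∃ τ : RingAut E, ∀ a, ψ (τ a) = g.1.1 * ψ a * (g.1⁻¹).1 := by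
    intro g
    refine D.exists_tau (fun x => g.1.1 * x * (g.1⁻¹).1) (fun x y => by rw [mul_add, add_mul])
      (by rw [mul_one, hgg']) (fun x y _ => ?_) (fun x hx => hP g.1 g.2 x hx)
    calc g.1.1 * (x * y) * (g.1⁻¹).1 = g.1.1 * x * 1 * y * (g.1⁻¹).1 := by rw [mul_one]; simp only [mul_assoc]
      _ = g.1.1 * x * (g.1⁻¹).1 * (g.1.1 * y * (g.1⁻¹).1) := by rw [← hgg g.1]; simp only [mul_assoc]
  choose τ hτ using h1
  let φ : P →* RingAut E := MonoidHom.mk' τ (fun g h => by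
    refine RingEquiv.ext fun a => D.inj ?_
    show ψ (τ (g * h) a) = ψ (τ g (τ h a))
    rw [hτ, hτ, hτ]
    have e1 : ((g * h : P) : GL (Fin n) F).1 = g.1.1 * h.1.1 := rfl
    have e2 : (((g * h : P) : GL (Fin n) F)⁻¹).1 = (h.1⁻¹).1 * (g.1⁻¹).1 := by
      rw [Subgroup.coe_mul, _root_.mul_inv_rev]
      rfl
    rw [e1, e2]
    simp only [mul_assoc])
  obtain ⟨ι, hι⟩ := D.exists_iota
  have h2 : Nat.card φ.range ∣ n := by
    refine D.card_aut_dvd φ.range ι ?_
    rintro _ ⟨g, rfl⟩ c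
    apply D.inj
    show ψ (τ g (ι c)) = _
    rw [hτ, hι, ← Algebra.commutes, mul_assoc, hgg', mul_one]
  have h3 : ∀ x ∈ φ.ker.map P.subtype, x.1 * z = z * x.1 := by
    rintro _ ⟨g, hg, rfl⟩
    obtain ⟨a, ha⟩ := D.mem z rfl
    have h4 : τ g = 1 := hg
    have h5 := hτ g a
    rw [h4, ha] at h5
    have h6 : ψ ((1 : RingAut E) a) = z := ha
    rw [h6] at h5
    show g.1.1 * z = z * g.1.1
    calc g.1.1 * z = g.1.1 * z * ((g.1⁻¹).1 * g.1.1) := by rw [hgg, mul_one]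
      _ = (g.1.1 * z * (g.1⁻¹).1) * g.1.1 := by simp only [mul_assoc]
      _ = z * g.1.1 := by rw [← h5]
  have h4 : Nat.card φ.ker ∣ Fintype.card F ^ n - 1 := by
    have h5 := D.card_dvd ⊤ (φ.ker.map P.subtype) (fun x hx => by
      obtain ⟨a, ha⟩ := D.mem x.1 (h3 x hx)
      exact ⟨a, trivial, ha⟩)
    rw [Subgroup.card_map_of_injective P.subtype_injective] at h5
    have h6 : Nat.card (⊤ : Subfield E) = Fintype.card F ^ n := by
      rw [← D.card]
      exact Nat.card_congr (Subfield.topEquiv).toEquiv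
    rwa [h6] at h5
  have h5 : Nat.card φ.ker * Nat.card φ.range = Nat.card P := by
    rw [← Subgroup.index_ker]
    exact Subgroup.card_mul_index _
  refine ⟨by rw [← h5]; exact mul_dvd_mul h4 h2, fun hcop => ?_⟩
  have h6 : Nat.card φ.range ∣ Nat.card P := ⟨_, by rw [mul_comm]; exact h5.symm⟩
  have h7 : Nat.card φ.range = 1 := by
    have := Nat.dvd_gcd h6 h2
    rwa [hcop, Nat.dvd_one] at this
  have h8 : φ.ker = ⊤ := by
    rw [← Subgroup.index_eq_one, Subgroup.index_ker, h7]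
  intro x hx y hy
  obtain ⟨a, ha⟩ := D.mem x.1 (h3 x ⟨⟨x, hx⟩, by rw [h8]; trivial, rfl⟩)
  obtain ⟨b, hb⟩ := D.mem y.1 (h3 y ⟨⟨y, hy⟩, by rw [h8]; trivial, rfl⟩)
  apply Units.ext
  show x.1 * y.1 = y.1 * x.1
  rw [← ha, ← hb, ← map_mul, mul_comm, map_mul]

/-- conjugates of `z` commuting with `z` -/
theorem FZ.norm_of_comm (D : FZ z ψ) {t : ℕ} (ht : t.Prime) (hz : z ^ t = 1) (hz1 : z ≠ 1) {g : GL (Fin n) F}
    (hg : z * ((g⁻¹).1 * z * g.1) = ((g⁻¹).1 * z * g.1) * z) {x : Matrix (Fin n) (Fin n) F} (hx : x * z = z * x) :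
    (g.1 * x * (g⁻¹).1) * z = z * (g.1 * x * (g⁻¹).1) := by
  have hgg : (g⁻¹).1 * g.1 = 1 := Units.inv_mul g
  have hgg' : g.1 * (g⁻¹).1 = 1 := Units.mul_inv g
  obtain ⟨a, ha⟩ := D.mem z rfl
  obtain ⟨b, hb⟩ := D.mem _ hg.symm
  have hpow : ∀ k : ℕ, ((g⁻¹).1 * z * g.1) ^ k = (g⁻¹).1 * z ^ k * g.1 := by
    intro k
    induction k with
    | zero => rw [pow_zero, pow_zero, mul_one, hgg]
    | succ k ih =>
      rw [pow_succ, ih, pow_succ]
      calc (g⁻¹).1 * z ^ k * g.1 * ((g⁻¹).1 * z * g.1) = (g⁻¹).1 * z ^ k * (g.1 * (g⁻¹).1) * z * g.1 := by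
            simp only [mul_assoc]
        _ = (g⁻¹).1 * (z ^ k * z) * g.1 := by rw [hgg', mul_one]; simp only [mul_assoc]
  have hoa : orderOf a = t := by
    have := Fact.mk ht
    apply orderOf_eq_prime
    · apply D.inj
      rw [map_pow, ha, hz, map_one]
    · rintro rfl
      rw [map_one] at ha
      exact hz1 ha.symm
  have ha1 : IsPrimitiveRoot a t := hoa ▸ IsPrimitiveRoot.orderOf a
  have hb1 : b ^ t = 1 := by
    apply D.inj
    rw [map_pow, hb, hpow, hz, mul_one, hgg, map_one]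
  have : NeZero t := ⟨ht.ne_zero⟩
  obtain ⟨i, -, hi⟩ := ha1.eq_pow_of_pow_eq_one hb1
  have h1 : x * ((g⁻¹).1 * z * g.1) = ((g⁻¹).1 * z * g.1) * x := by
    rw [← hb, ← hi, map_pow, ha]
    have : Commute x z := hx
    exact this.pow_right i
  calc (g.1 * x * (g⁻¹).1) * z = g.1 * (x * ((g⁻¹).1 * z * g.1)) * (g⁻¹).1 := by
        simp only [mul_assoc]
        rw [hgg', mul_one]
    _ = g.1 * (((g⁻¹).1 * z * g.1) * x) * (g⁻¹).1 := by rw [h1]
    _ = (g.1 * (g⁻¹).1) * z * (g.1 * x * (g⁻¹).1) := by simp only [mul_assoc]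
    _ = z * (g.1 * x * (g⁻¹).1) := by rw [hgg', one_mul]

end Cfsg.Agent.H159.DPi
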