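import Cfsg.Agent.H506.DPL.Defs
import Cfsg.Agent.H159.DPi.StNumA
import Cfsg.Agent.H159.DPi.StNumB

/-!
# S4247, `StNum` (helper159)
-/

set_option autoImplicit false
set_option linter.unusedSectionVars false

namespace Cfsg.Agent.H159.DPi

open Matrix Module Cfsg Cfsg.Agent.H167.OP Cfsg.Agent.H170.HL Cfsg.Agent.H556.HallRowAbs Cfsg.Agent.H553.RV
open Cfsg.Agent.H817.DPi Cfsg.Agent.H506.DPL

/-- the order of `GL_n(q)` -/
theorem card_gl_eq {F : Type} [Field F] [Fintype F] {n : ℕ} (hn : 1 ≤ n) :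
    Nat.card (GL (Fin n) F) = Fintype.card F ^ (n * (n - 1) / 2) *
      ((∏ i ∈ Finset.range (n - 1), (Fintype.card F ^ (i + 1) - 1)) * (Fintype.card F ^ n - 1)) := by
  have h1 : ∀ (q m : ℕ), ∏ i ∈ Finset.range m, (q ^ m - q ^ i) =
      q ^ (m * (m - 1) / 2) * ∏ i ∈ Finset.range m, (q ^ (i + 1) - 1) := by
    intro q m
    have h2 : ∏ i ∈ Finset.range m, (q ^ m - q ^ i) = ∏ i ∈ Finset.range m, (q ^ i * (q ^ (m - i) - 1)) := by
      refine Finset.prod_congr rfl fun i hi => ?_
      rw [Finset.mem_range] at hi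
      rw [Nat.mul_sub, ← pow_add, mul_one, Nat.add_sub_cancel' hi.le]
    rw [h2, Finset.prod_mul_distrib, Finset.prod_pow_eq_pow_sum, Finset.sum_range_id]
    congr 1
    rw [← Finset.prod_range_reflect]
    refine Finset.prod_congr rfl fun i hi => ?_
    rw [Finset.mem_range] at hi
    congr 2
    omega
  rw [H556.HallOrd.card_GL_prod, h1]
  congr 1
  obtain ⟨m, rfl⟩ : ∃ m, n = m + 1 := ⟨n - 1, by omega⟩
  rw [Nat.add_sub_cancel, Finset.prod_range_succ]

theorem st_num : StNum := by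
  intro π p F _ _ _ n P' t m f hp hpπ h2π hn hH hnil h het
  have := Fact.mk hp
  have := Fact.mk h.prime
  have hq : 0 < Fintype.card F := Fintype.card_pos
  have hq2 : 2 ≤ Fintype.card F := Fintype.one_lt_card
  set i0 : Fin m := ⟨0, h.pos⟩ with hi0
  set z : (Matrix (Fin n) (Fin n) F)ˣ := f i0 with hz
  have hzP : z ∈ P' := h.fm.mem i0
  have hzt : z ^ t = 1 := (h.fm.isZ i0).1
  have hrk : rk (rg F n) z = n := (h.fm.isZ i0).2.trans het
  have hz1 : z ≠ 1 := by
    intro h0
    rw [h0] at hrk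
    have h1 : rk (rg F n) (1 : (Matrix (Fin n) (Fin n) F)ˣ) = 0 := by
      rw [rk, map_one, sub_self, LinearMap.range_zero, finrank_bot]
    omega
  have htP : t ∣ Nat.card P' := by
    have h1 : orderOf (⟨z, hzP⟩ : P') = t := by
      apply orderOf_eq_prime
      · exact Subtype.ext hzt
      · intro h0
        exact hz1 (congrArg Subtype.val h0)
    rw [← h1]
    exact orderOf_dvd_natCard _
  have htF : (t : F) ≠ 0 := (h.hc.ok t h.prime htP).2
  have htp : t ≠ p := fun h0 => hpπ (h0 ▸ h.mem)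
  have hzM : z.1 ^ t = 1 := by rw [← Units.val_pow_eq_pow_val, hzt, Units.val_one]
  have hzM1 : z.1 ≠ 1 := fun h0 => hz1 (Units.ext h0)
  have hirr : Irr z.1 := irr_of_pow (r := p) htp (not_dvd_pow_sub_one hq het) hzM hzM1
  obtain ⟨E, _, _, ψ, D⟩ := exists_field (by omega) hirr
  -- `P'` normalises the centraliser of `z`
  have hSm : ∀ g ∈ P', g⁻¹ * z * g ∈ Sm (rg F n) P' t := by
    intro g hg
    refine ⟨P'.mul_mem (P'.mul_mem (P'.inv_mem hg) hzP) hg, ⟨1, ?_⟩, ?_⟩
    · have := conj_pow (i := t) (a := g⁻¹) (b := z)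
      rw [inv_inv] at this
      rw [pow_one, this, hzt, mul_one, inv_mul_cancel]
    · have h1 := rk_conj (ρ := rg F n) g⁻¹ z
      rw [inv_inv] at h1
      rw [h1, hrk, ← het]
      exact h.gen
  have hinj : Function.Injective (rg F n) := rep_injective Units.val_injective
  have hnorm : ∀ g ∈ P', ∀ x : Matrix (Fin n) (Fin n) F, x * z.1 = z.1 * x →
      (g.1 * x * (g⁻¹).1) * z.1 = z.1 * (g.1 * x * (g⁻¹).1) := by
    intro g hg x hx
    refine D.norm_of_comm h.prime hzM hzM1 ?_ hx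
    have h1 := small_comm hinj h.hc h.prime htF (x := z) (y := g⁻¹ * z * g)
      (by simpa using hSm 1 P'.one_mem) (hSm g hg)
    exact congrArg Units.val h1
  obtain ⟨hdvd, hcomm⟩ := D.card_norm hnorm
  -- the arithmetic
  have hGL := card_gl_eq (F := F) (n := n) (by omega)
  have hcopq : ∀ s ∈ π, s.Prime → Nat.Coprime s (Fintype.card F) := by
    intro s hs hsp
    have hsp' : s ≠ p := fun h0 => hpπ (h0 ▸ hs)
    obtain ⟨a, -, ha⟩ := FiniteField.card F p
    rw [ha]
    exact Nat.Coprime.pow_right _ ((Nat.coprime_primes hsp hp).2 hsp')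
  have hne : ∀ s ∈ π, s.Prime → (Fintype.card F : ZMod s) ≠ 0 := by
    intro s hs hsp
    rw [Ne, ZMod.natCast_eq_zero_iff]
    intro h0
    exact hsp.ne_one (Nat.Coprime.eq_one_of_dvd (hcopq s hs hsp) h0)
  have key : ∀ s ∈ π, s.Prime → s ∣ Nat.card (Matrix (Fin n) (Fin n) F)ˣ →
      eo F s = n ∨ (s = n ∧ eo F s = n - 1 ∧ ¬ s ^ 2 ∣ Fintype.card F ^ (n - 1) - 1) := by
    intro s hs hsp hsd
    have hsq := hcopq s hs hsp
    have hc0 := hne s hs hsp
    have hpos := H556.HallOrd.order_pos hsp hc0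
    refine num_hall hn hq2 hsp (fun h0 => h2π (h0 ▸ hs)) hpos (H556.HallOrd.order_dvd hsp hc0) ?_ rfl ?_
    · -- `ord_s(q) ≤ n`
      have h1 : s ∣ (∏ i ∈ Finset.range (n - 1), (Fintype.card F ^ (i + 1) - 1)) * (Fintype.card F ^ n - 1) := by
        refine (Nat.Coprime.pow_right (n * (n - 1) / 2) hsq).dvd_of_dvd_mul_left ?_
        rw [← hGL]
        exact hsd
      rcases (Nat.Prime.dvd_mul hsp).1 h1 with h2 | h2
      · obtain ⟨i, hi, h3⟩ := (Prime.dvd_finsetProd_iff hsp.prime _).1 h2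
        rw [Finset.mem_range] at hi
        rw [dvd_pow_sub_one_iff_orderOf hq] at h3
        have := Nat.le_of_dvd (by omega) h3
        omega
      · rw [dvd_pow_sub_one_iff_orderOf hq] at h2
        exact Nat.le_of_dvd (by omega) h2
    · intro j hj
      have h1 : s ^ j ∣ Nat.card (GL (Fin n) F) := by
        rw [hGL]
        exact hj.mul_left _
      have h2 : Nat.card P' * P'.index = Nat.card (GL (Fin n) F) := Subgroup.card_mul_index P'
      rw [← h2] at h1
      have h3 : Nat.Coprime (s ^ j) P'.index :=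
        Nat.Coprime.pow_left _ ((Nat.Prime.coprime_iff_not_dvd hsp).2 (hH.2 s hsp hs))
      exact (h3.dvd_of_dvd_mul_right h1).trans hdvd
  -- some prime is of the second type
  have hex : ∃ s ∈ π, s.Prime ∧ s = n ∧ eo F s = n - 1 ∧ ¬ s ^ 2 ∣ Fintype.card F ^ (n - 1) - 1 := by
    by_contra hcon
    push Not at hcon
    apply hnil
    have hcop : Nat.Coprime (Nat.card P') n := by
      by_contra hc
      obtain ⟨s, hs, h1, h2⟩ := Nat.Prime.not_coprime_iff_dvd.1 hc
      have hsπ := hH.1 s hs h1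
      rcases key s hsπ hs (h1.trans (Subgroup.card_subgroup_dvd_card P')) with h3 | ⟨h3, h4, h5⟩
      · have h6 := H556.HallOrd.order_dvd hs (hne s hsπ hs)
        have h7 : eo F s ∣ s - 1 := h6
        rw [h3] at h7
        have h8 := Nat.le_of_dvd (by have := hs.two_le; omega) h7
        have h9 := Nat.le_of_dvd (by omega) h2
        have := hs.two_le
        omega
      · exact h5 (hcon s hsπ hs h3 h4)
    let _ : CommGroup P' := { (inferInstance : Group P') with
      mul_comm := fun x y => Subtype.ext (hcomm hcop x x.2 y y.2) }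
    exact CommGroup.isNilpotent
  obtain ⟨s, hsπ, hs, rfl, h1, h2⟩ := hex
  refine ⟨hs, hsπ, h1, h2, fun r hr hrp hrd hrn => ?_⟩
  rcases key r hr hrp hrd with h3 | ⟨h3, -, -⟩
  · exact h3
  · exact absurd h3 hrn

end Cfsg.Agent.H159.DPi
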